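import Cfsg.Agent.Perm57.SmallChars.TwistedCount
import Cfsg.Agent.Chars.PermChar.Basic
import Cfsg.Agent.Chars.Exceptional.Inner
import Mathlib.GroupTheory.Perm.Cycle.PossibleTypes
import Mathlib.GroupTheory.SpecificGroups.Alternating

/-!
Three small irreducible characters of four-transitive groups and their zeros.
-/

set_option autoImplicit false
set_option linter.style.haveILetI false

open MulAction Cfsg CfsgLib.Chars
open scoped ComplexConjugate

namespace CfsgLib.SmallChars

universe u

variable {G : Type u} [Group G] {α : Type} [MulAction G α]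

/-- The number of fixed points. -/
noncomputable def fixedCount (α : Type) [MulAction G α] (g : G) : ℕ :=
  tupleCount α (∅ : Finset (Fin 1 × Fin 1)) id g

/-- The number of fixed ordered pairs of distinct points. -/
noncomputable def pairCount (α : Type) [MulAction G α] (g : G) : ℕ :=
  tupleCount α ({(0, 1)} : Finset (Fin 2 × Fin 2)) id g

/-- The number of ordered pairs of distinct points interchanged. -/
noncomputable def swapCount (α : Type) [MulAction G α] (g : G) : ℕ :=
  tupleCount α ({(0, 1)} : Finset (Fin 2 × Fin 2)) (Equiv.swap 0 1) g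

theorem fixedCount_eq (g : G) : fixedCount α g = Nat.card (fixedBy α g) := by
  refine Nat.card_congr
    { toFun := fun v => ⟨v.1 0, v.2.2 0⟩
      invFun := fun a => ⟨fun _ => a.1, ⟨fun p hp => absurd hp (Finset.notMem_empty p),
        fun _ => a.2⟩⟩
      left_inv := fun v => Subtype.ext (funext fun i => by rw [Subsingleton.elim i 0])
      right_inv := fun a => rfl }

theorem pairCount_eq [Finite α] (g : G) :
    pairCount α g = fixedCount α g * fixedCount α g - fixedCount α g := by
  classical
  haveI := Fintype.ofFinite α
  let F : Finset α := Finset.univ.filter fun a => g • a = a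
  have hF : fixedCount α g = F.card := by
    rw [fixedCount_eq, Nat.card_eq_fintype_card]
    exact Fintype.card_of_subtype F fun x => by simp [F, mem_fixedBy]
  rw [hF, ← Finset.offDiag_card, pairCount, tupleCount, ← Nat.card_eq_finsetCard F.offDiag]
  refine Nat.card_congr
    { toFun := fun v => ⟨(v.1 0, v.1 1), ?_⟩
      invFun := fun q => ⟨![q.1.1, q.1.2], ?_, ?_⟩
      left_inv := fun v => Subtype.ext (funext fun i => by fin_cases i <;> rfl)
      right_inv := fun q => rfl }
  · simp only [Finset.mem_offDiag, F, Finset.mem_filter, Finset.mem_univ, true_and]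
    exact ⟨v.2.2 0, v.2.2 1, v.2.1 (0, 1) (Finset.mem_singleton_self _)⟩
  · intro p hp
    rw [Finset.mem_singleton] at hp
    subst hp
    simpa using (Finset.mem_offDiag.1 q.2).2.2
  · intro i
    have h := Finset.mem_offDiag.1 q.2
    simp only [F, Finset.mem_filter, Finset.mem_univ, true_and] at h
    fin_cases i
    · simpa using h.1
    · simpa using h.2.1

theorem swapCount_eq_zero [Finite α] (g : G) (h : ∀ a : α, g • g • a = a → g • a = a) :
    swapCount α g = 0 := by
  rw [swapCount, tupleCount, Nat.card_eq_zero]
  refine Or.inl ⟨fun v => v.2.1 (0, 1) (Finset.mem_singleton_self _) ?_⟩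
  have h0 : g • v.1 0 = v.1 1 := by simpa using v.2.2 0
  have h1 : g • v.1 1 = v.1 0 := by simpa using v.2.2 1
  have := h (v.1 0) (by rw [h0, h1])
  rw [h0] at this
  exact this.symm

/-- Two-element subsets. -/
def TwoSets (α : Type) : Type := {s : Finset α // s.card = 2}

instance [Finite α] : Finite (TwoSets α) := by
  haveI := Fintype.ofFinite α
  exact Subtype.finite

variable [DecidableEq α]

instance instMulActionTwoSets : MulAction G (TwoSets α) where
  smul g s := ⟨s.1.image (g • ·), by
    rw [Finset.card_image_of_injective _ (MulAction.injective g)]; exact s.2⟩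
  one_smul s := Subtype.ext (by change s.1.image _ = _; simp)
  mul_smul g h s := Subtype.ext (by
    change s.1.image _ = (s.1.image _).image _
    simp [Finset.image_image, Function.comp_def, mul_smul])

theorem smul_twoSets_val (g : G) (s : TwoSets α) : (g • s).1 = s.1.image (g • ·) := rfl

theorem two_mul_fixed_twoSets [Finite α] (g : G) :
    2 * Nat.card (fixedBy (TwoSets α) g) = pairCount α g + swapCount α g := by
  classical
  haveI := Fintype.ofFinite α
  let V : Finset (Fin 2 → α) := Finset.univ.filter fun v =>
    v 0 ≠ v 1 ∧ ({v 0, v 1} : Finset α).image (g • ·) = {v 0, v 1}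
  let P : Finset (Fin 2 → α) := Finset.univ.filter fun v =>
    v 0 ≠ v 1 ∧ g • v 0 = v 0 ∧ g • v 1 = v 1
  let T : Finset (Fin 2 → α) := Finset.univ.filter fun v =>
    v 0 ≠ v 1 ∧ g • v 0 = v 1 ∧ g • v 1 = v 0
  have hP : pairCount α g = P.card := by
    rw [pairCount, tupleCount, Nat.card_eq_fintype_card, Fintype.card_subtype]
    congr 1
    ext v
    simp [P, Fin.forall_fin_two]
  have hT : swapCount α g = T.card := by
    rw [swapCount, tupleCount, Nat.card_eq_fintype_card, Fintype.card_subtype]
    congr 1
    ext v
    simp [T, Fin.forall_fin_two]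
  have hV : V = P ∪ T := by
    ext v
    simp only [V, P, T, Finset.mem_union, Finset.mem_filter, Finset.mem_univ, true_and]
    constructor
    · rintro ⟨hne, he⟩
      rw [Finset.image_insert, Finset.image_singleton] at he
      have h0 : g • v 0 = v 0 ∨ g • v 0 = v 1 := by
        have h := Finset.ext_iff.1 he (g • v 0)
        simpa using h
      have h1 : g • v 1 = v 0 ∨ g • v 1 = v 1 := by
        have h := Finset.ext_iff.1 he (g • v 1)
        simpa using h
      have hne' : g • v 0 ≠ g • v 1 := fun h => hne (smul_left_cancel g h)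
      rcases h0 with h0 | h0 <;> rcases h1 with h1 | h1
      · exact absurd (h0.trans h1.symm) hne'
      · exact Or.inl ⟨hne, h0, h1⟩
      · exact Or.inr ⟨hne, h0, h1⟩
      · exact absurd (h0.trans h1.symm) hne'
    · rintro (⟨hne, h0, h1⟩ | ⟨hne, h0, h1⟩)
      · exact ⟨hne, by rw [Finset.image_insert, Finset.image_singleton, h0, h1]⟩
      · exact ⟨hne, by rw [Finset.image_insert, Finset.image_singleton, h0, h1, Finset.pair_comm]⟩
  have hd : Disjoint P T := Finset.disjoint_left.2 fun v hp ht => by
    simp only [P, T, Finset.mem_filter, Finset.mem_univ, true_and] at hp ht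
    exact hp.1 (hp.2.1.symm.trans ht.2.1)
  rw [hP, hT, ← Finset.card_union_of_disjoint hd, ← hV]
  let S : Finset (Finset α) := Finset.univ.filter fun s => s.card = 2 ∧ s.image (g • ·) = s
  have hS : Nat.card (fixedBy (TwoSets α) g) = S.card := by
    rw [← Nat.card_eq_finsetCard S]
    refine Nat.card_congr
      { toFun := fun s => ⟨s.1.1, by
          simp only [S, Finset.mem_filter, Finset.mem_univ, true_and]
          exact ⟨s.1.2, congrArg Subtype.val s.2⟩⟩
        invFun := fun s => ⟨⟨s.1, (Finset.mem_filter.1 s.2).2.1⟩,
          Subtype.ext (Finset.mem_filter.1 s.2).2.2⟩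
        left_inv := fun s => rfl
        right_inv := fun s => rfl }
  rw [hS]
  have hfib : ∀ s ∈ S, (V.filter fun v => ({v 0, v 1} : Finset α) = s).card = 2 := by
    intro s hs
    simp only [S, Finset.mem_filter, Finset.mem_univ, true_and] at hs
    obtain ⟨a, b, hab, rfl⟩ := Finset.card_eq_two.1 hs.1
    have : (V.filter fun v => ({v 0, v 1} : Finset α) = {a, b}) = {![a, b], ![b, a]} := by
      ext v
      simp only [V, Finset.mem_filter, Finset.mem_univ, true_and, Finset.mem_insert,
        Finset.mem_singleton]
      constructor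
      · rintro ⟨⟨hne, -⟩, he⟩
        have h0 : v 0 = a ∨ v 0 = b := by
          have h := Finset.ext_iff.1 he (v 0)
          simpa using h
        have h1 : v 1 = a ∨ v 1 = b := by
          have h := Finset.ext_iff.1 he (v 1)
          simpa using h
        rcases h0 with h0 | h0 <;> rcases h1 with h1 | h1
        · exact absurd (h0.trans h1.symm) hne
        · exact Or.inl (funext fun i => by fin_cases i <;> simp [h0, h1])
        · exact Or.inr (funext fun i => by fin_cases i <;> simp [h0, h1])
        · exact absurd (h0.trans h1.symm) hne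
      · rintro (rfl | rfl)
        · exact ⟨⟨by simpa using hab, by simpa using hs.2⟩, by simp⟩
        · exact ⟨⟨by simpa using hab.symm, by simpa [Finset.pair_comm] using hs.2⟩,
            by simp [Finset.pair_comm]⟩
    rw [this, Finset.card_pair]
    intro h
    exact hab (congrFun h 0)
  rw [Finset.card_eq_sum_card_fiberwise (f := fun v : Fin 2 → α => ({v 0, v 1} : Finset α)) (t := S)
    fun v hv => ?_, Finset.sum_congr rfl hfib, Finset.sum_const, smul_eq_mul, mul_comm]
  simp only [Finset.mem_coe, S, V, Finset.mem_filter, Finset.mem_univ, true_and] at hv ⊢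
  exact ⟨Finset.card_pair hv.1, hv.2⟩

/-- The deleted permutation character. -/
noncomputable def charStd (α : Type) [MulAction G α] : G → ℂ := fun g => (fixedCount α g : ℂ) - 1

/-- The character of the partition `(n - 2, 2)`. -/
noncomputable def charTwoTwo (α : Type) [MulAction G α] : G → ℂ :=
  fun g => ((pairCount α g : ℂ) + swapCount α g) / 2 - fixedCount α g

/-- The character of the partition `(n - 2, 1, 1)`. -/
noncomputable def charOneOne (α : Type) [MulAction G α] : G → ℂ :=
  fun g => ((pairCount α g : ℂ) - swapCount α g) / 2 - fixedCount α g + 1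

variable [Fintype G] [Fintype α]

omit [DecidableEq α] in
theorem isCharacter_fixedCount : IsCharacter G fun g => (fixedCount α g : ℂ) := by
  classical
  have h := PermChar.isCharacter_fixChar (G := G) (Ω := α)
  have e : (fun g => (fixedCount α g : ℂ)) = PermChar.fixChar G α := by
    funext g
    rw [PermChar.fixChar, fixedCount_eq]
  rwa [e]

theorem isCharacter_twoSets :
    IsCharacter G fun g => (Nat.card (fixedBy (TwoSets α) g) : ℂ) := by
  classical
  haveI := Fintype.ofFinite (TwoSets α)
  exact PermChar.isCharacter_fixChar (G := G) (Ω := TwoSets α)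

theorem fixed_twoSets_cast (g : G) :
    (Nat.card (fixedBy (TwoSets α) g) : ℂ) = ((pairCount α g : ℂ) + swapCount α g) / 2 := by
  have h := congrArg (fun m : ℕ => (m : ℂ)) (two_mul_fixed_twoSets (α := α) g)
  push_cast at h
  rw [← h]
  ring

omit [Fintype G] [DecidableEq α] in
theorem pairCount_cast (g : G) :
    (pairCount α g : ℂ) = (fixedCount α g : ℂ) * fixedCount α g - fixedCount α g := by
  rw [pairCount_eq, Nat.cast_sub (Nat.le_mul_self _), Nat.cast_mul]

/-- A virtual character of norm one with positive degree is irreducible. -/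
theorem isIrrCharacter_of_norm_one {a : G → ℂ} (hg : IsGeneralizedCharacter G a)
    (h1 : classInner a a = 1) {d : ℕ} (hd : a 1 = d) : IsIrrCharacter G a := by
  obtain ⟨ε, hε, hirr⟩ := Exceptional.gen_norm_one hg h1
  rcases hε with rfl | rfl
  · simpa using hirr
  · exfalso
    obtain ⟨m, hm, hm'⟩ := exists_pos_natCast_map_one hirr
    simp [hd] at hm'
    have : ((m + d : ℕ) : ℂ) = 0 := by push_cast; linear_combination -hm'
    rw [Nat.cast_eq_zero] at this
    omega

omit [DecidableEq α] in
/-- Real valued functions have norm given by the sum of squares. -/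
theorem classInner_self_of_real {a : G → ℂ} {c : G → ℝ} (hac : ∀ g, a g = (c g : ℂ))
    (h : ∑ g, a g * a g = (Nat.card G : ℂ)) : classInner a a = 1 := by
  rw [classInner]
  have : ∀ g, a g * conj (a g) = a g * a g := fun g => by rw [hac, Complex.conj_ofReal]
  simp only [this, h]
  exact inv_mul_cancel₀ (by exact_mod_cast Nat.card_pos.ne')

variable (h4 : IsMultiplyPretransitive G α 4) (hn : 4 ≤ Nat.card α)

include h4 hn

theorem sums : ∑ g : G, fixedCount α g = Nat.card G ∧
    ∑ g : G, pairCount α g = Nat.card G ∧
    ∑ g : G, swapCount α g = Nat.card G ∧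
    ∑ g : G, fixedCount α g * fixedCount α g = 2 * Nat.card G ∧
    ∑ g : G, pairCount α g * fixedCount α g = 3 * Nat.card G ∧
    ∑ g : G, swapCount α g * fixedCount α g = Nat.card G ∧
    ∑ g : G, pairCount α g * pairCount α g = 7 * Nat.card G ∧
    ∑ g : G, pairCount α g * swapCount α g = Nat.card G ∧
    ∑ g : G, swapCount α g * swapCount α g = 3 * Nat.card G := by
  haveI := h4
  refine ⟨?_, ?_, ?_, ?_, ?_, ?_, ?_, ?_, ?_⟩ <;>
    simp only [fixedCount, pairCount, swapCount, tupleCount_mul] <;>
    rw [sum_tupleCount (t := 4) (by norm_num) hn]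
  · rw [show patternCount (∅ : Finset (Fin 1 × Fin 1)) id = 1 by decide, mul_one]
  · rw [show patternCount ({(0, 1)} : Finset (Fin 2 × Fin 2)) id = 1 by decide, mul_one]
  · rw [show patternCount ({(0, 1)} : Finset (Fin 2 × Fin 2)) (Equiv.swap 0 1) = 1 by decide,
      mul_one]
  · rw [mul_comm]; congr 1
  · rw [mul_comm]; congr 1
  · conv_rhs => rw [← mul_one (Nat.card G)]
    congr 1
  · rw [mul_comm]; congr 1
  · conv_rhs => rw [← mul_one (Nat.card G)]
    congr 1
  · rw [mul_comm]; congr 1

omit [DecidableEq α] in
theorem isIrr_charStd : IsIrrCharacter G (charStd α) := by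
  classical
  obtain ⟨h1, -, -, h2, -, -, -, -, -⟩ := sums (G := G) (α := α) h4 hn
  refine isIrrCharacter_of_norm_one
    ⟨_, 1, isCharacter_fixedCount (α := α), isCharacter_one, funext fun g => rfl⟩ ?_
    (d := Nat.card α - 1) ?_
  · refine classInner_self_of_real (c := fun g => (fixedCount α g : ℝ) - 1)
      (fun g => by simp [charStd]) ?_
    have e : ∀ g : G, charStd α g * charStd α g =
        ((fixedCount α g * fixedCount α g : ℕ) : ℂ) - 2 * (fixedCount α g : ℕ) + 1 := fun g => by
      simp only [charStd]; push_cast; ring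
    simp only [e, Finset.sum_add_distrib, Finset.sum_sub_distrib, ← Finset.mul_sum, ← Nat.cast_sum,
      h1, h2, Finset.sum_const, Finset.card_univ, nsmul_one, ← Nat.card_eq_fintype_card]
    push_cast
    ring
  · simp [charStd, fixedCount_eq, fixedBy]
    rw [← Nat.card_eq_fintype_card, Nat.cast_sub (show 1 ≤ Nat.card α by omega), Nat.cast_one]

theorem isIrr_charTwoTwo (hd : Nat.card α * 3 ≤ Nat.card α * Nat.card α) :
    IsIrrCharacter G (charTwoTwo α) := by
  obtain ⟨-, -, -, h2, h3, h4', h5, h6, h7⟩ := sums (G := G) (α := α) h4 hn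
  refine isIrrCharacter_of_norm_one
    ⟨_, _, isCharacter_twoSets (α := α), isCharacter_fixedCount (α := α), funext fun g => ?_⟩ ?_
    (d := (Nat.card α * Nat.card α - Nat.card α) / 2 - Nat.card α) ?_
  · rw [Pi.sub_apply, fixed_twoSets_cast]; rfl
  · refine classInner_self_of_real
      (c := fun g => ((pairCount α g : ℝ) + swapCount α g) / 2 - fixedCount α g)
      (fun g => by simp [charTwoTwo]) ?_
    have e : ∀ g : G, charTwoTwo α g * charTwoTwo α g =
        ((pairCount α g * pairCount α g : ℕ) + 2 * (pairCount α g * swapCount α g : ℕ)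
          + (swapCount α g * swapCount α g : ℕ) - 4 * (pairCount α g * fixedCount α g : ℕ)
          - 4 * (swapCount α g * fixedCount α g : ℕ)
          + 4 * (fixedCount α g * fixedCount α g : ℕ)) / 4 := fun g => by
      simp only [charTwoTwo]; push_cast; ring
    simp only [e, ← Finset.sum_div, Finset.sum_add_distrib, Finset.sum_sub_distrib,
      ← Finset.mul_sum, ← Nat.cast_sum, h2, h3, h4', h5, h6, h7]
    push_cast
    ring
  · have hf : fixedCount α (1 : G) = Nat.card α := by simp [fixedCount_eq, fixedBy]
    have hs : swapCount α (1 : G) = 0 := swapCount_eq_zero _ fun a _ => one_smul _ a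
    obtain ⟨t, ht⟩ := Nat.even_mul_pred_self (Nat.card α)
    rw [← two_mul] at ht
    have ht' : Nat.card α * Nat.card α - Nat.card α = 2 * t := by
      rw [← ht, Nat.mul_sub_one]
    rw [ht', Nat.mul_div_cancel_left _ two_pos]
    have hle : Nat.card α ≤ t := by
      have : 2 * Nat.card α + Nat.card α ≤ Nat.card α * Nat.card α := by linarith
      omega
    simp only [charTwoTwo, hs, pairCount_eq, hf, ht', Nat.cast_zero, add_zero, Nat.cast_mul,
      Nat.cast_ofNat, Nat.cast_sub hle]
    ring

theorem isIrr_charOneOne : IsIrrCharacter G (charOneOne α) := by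
  obtain ⟨h1, h1p, h1t, h2, h3, h4', h5, h6, h7⟩ := sums (G := G) (α := α) h4 hn
  have hgen : IsGeneralizedCharacter G (charOneOne α) := by
    refine ⟨_, _, isCharacter_add (isCharacter_mul (isCharacter_fixedCount (α := α))
      (isCharacter_fixedCount (α := α))) isCharacter_one,
      isCharacter_add (isCharacter_twoSets (α := α))
        (isCharacter_add (isCharacter_fixedCount (α := α)) (isCharacter_fixedCount (α := α))),
      funext fun g => ?_⟩
    simp only [Pi.sub_apply, Pi.add_apply, Pi.mul_apply, Pi.one_apply, fixed_twoSets_cast,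
      charOneOne, pairCount_cast]
    ring
  refine isIrrCharacter_of_norm_one hgen ?_
    (d := (Nat.card α * Nat.card α - Nat.card α) / 2 + 1 - Nat.card α) ?_
  · refine classInner_self_of_real
      (c := fun g => ((pairCount α g : ℝ) - swapCount α g) / 2 - fixedCount α g + 1)
      (fun g => by simp [charOneOne]) ?_
    have e : ∀ g : G, charOneOne α g * charOneOne α g =
        ((pairCount α g * pairCount α g : ℕ) - 2 * (pairCount α g * swapCount α g : ℕ)
          + (swapCount α g * swapCount α g : ℕ) - 4 * (pairCount α g * fixedCount α g : ℕ)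
          + 4 * (swapCount α g * fixedCount α g : ℕ)
          + 4 * (fixedCount α g * fixedCount α g : ℕ)
          + 4 * (pairCount α g : ℕ) - 4 * (swapCount α g : ℕ) - 8 * (fixedCount α g : ℕ)
          + 4) / 4 := fun g => by
      simp only [charOneOne]; push_cast; ring
    simp only [e, ← Finset.sum_div, Finset.sum_add_distrib, Finset.sum_sub_distrib,
      ← Finset.mul_sum, ← Nat.cast_sum, h1, h1p, h1t, h2, h3, h4', h5, h6, h7,
      Finset.sum_const, Finset.card_univ, nsmul_eq_mul, ← Nat.card_eq_fintype_card]
    push_cast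
    ring
  · have hf : fixedCount α (1 : G) = Nat.card α := by simp [fixedCount_eq, fixedBy]
    have hs : swapCount α (1 : G) = 0 := swapCount_eq_zero _ fun a _ => one_smul _ a
    obtain ⟨t, ht⟩ := Nat.even_mul_pred_self (Nat.card α)
    rw [← two_mul] at ht
    have ht' : Nat.card α * Nat.card α - Nat.card α = 2 * t := by
      rw [← ht, Nat.mul_sub_one]
    rw [ht', Nat.mul_div_cancel_left _ two_pos]
    have hle : Nat.card α ≤ t + 1 := by
      have : 4 * Nat.card α ≤ Nat.card α * Nat.card α := Nat.mul_le_mul_right _ hn
      omega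
    simp only [charOneOne, hs, pairCount_eq, hf, ht', Nat.cast_zero, sub_zero, Nat.cast_mul,
      Nat.cast_ofNat, Nat.cast_sub hle, Nat.cast_add, Nat.cast_one]
    ring

omit h4 hn
end CfsgLib.SmallChars
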