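import Mathlib.GroupTheory.GroupAction.MultipleTransitivity
import Mathlib.GroupTheory.GroupAction.Quotient

/-!
Sums over a four-transitive group of twisted fixed tuple counts.
-/

set_option autoImplicit false
set_option linter.style.haveILetI false

open MulAction

namespace CfsgLib.SmallChars

variable {G : Type*} [Group G] {α : Type*} [MulAction G α]

/-- The number of tuples, distinct at the places in `D`, moved by `g` through `σ`. -/
noncomputable def tupleCount (α : Type*) [MulAction G α] {k : ℕ} (D : Finset (Fin k × Fin k))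
    (σ : Fin k → Fin k) (g : G) : ℕ :=
  Nat.card {v : Fin k → α // (∀ p ∈ D, v p.1 ≠ v p.2) ∧ ∀ i, g • v i = v (σ i)}

/-- The number of equality patterns compatible with `D` and invariant under `σ`. -/
def patternCount {k : ℕ} (D : Finset (Fin k × Fin k)) (σ : Fin k → Fin k) : ℕ :=
  (Finset.univ.filter fun r : Fin k → Fin k => (∀ i, r i ≤ i ∧ r (r i) = r i) ∧
    (∀ p ∈ D, r p.1 ≠ r p.2) ∧ ∀ i j, r i = r j ↔ r (σ i) = r (σ j)).card

/-- The places where `v` repeats its entry at `i`. -/
noncomputable def firstIndex {k : ℕ} (v : Fin k → α) (i : Fin k) : Fin k :=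
  letI := Classical.decEq α
  (Finset.univ.filter fun j => v j = v i).min' ⟨i, by simp⟩

theorem apply_firstIndex {k : ℕ} (v : Fin k → α) (i : Fin k) : v (firstIndex v i) = v i := by
  classical
  have h := Finset.min'_mem (Finset.univ.filter fun j => v j = v i) ⟨i, by simp⟩
  rw [Finset.mem_filter] at h
  convert! h.2

theorem firstIndex_le {k : ℕ} (v : Fin k → α) {i j : Fin k} (h : v j = v i) :
    firstIndex v i ≤ j := by
  classical
  unfold firstIndex
  exact Finset.min'_le _ j (by simp [h])

theorem firstIndex_eq_iff {k : ℕ} (v : Fin k → α) (i j : Fin k) :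
    firstIndex v i = firstIndex v j ↔ v i = v j := by
  refine ⟨fun h => by rw [← apply_firstIndex v i, h, apply_firstIndex v j], fun h => ?_⟩
  exact le_antisymm (firstIndex_le v (by rw [apply_firstIndex v j, h]))
    (firstIndex_le v (by rw [apply_firstIndex v i, h]))

theorem firstIndex_congr {k : ℕ} {v w : Fin k → α} (h : ∀ i j, v i = v j ↔ w i = w j) :
    firstIndex v = firstIndex w := by
  funext i
  exact le_antisymm (firstIndex_le v ((h _ _).2 (apply_firstIndex w i)))
    (firstIndex_le w ((h _ _).1 (apply_firstIndex v i)))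

/-- Tuples with the same equality pattern are in one orbit. -/
theorem exists_smul_of_pattern [Finite α] {k t : ℕ} (hkt : k ≤ t) (ht : t ≤ Nat.card α)
    [IsMultiplyPretransitive G α t] {v w : Fin k → α} (h : ∀ i j, v i = v j ↔ w i = w j) :
    ∃ g : G, g • v = w := by
  classical
  let I := {i : Fin k // firstIndex v i = i}
  obtain ⟨m, ⟨e⟩⟩ : ∃ m, Nonempty (Fin m ≃ I) := ⟨_, ⟨(Fintype.equivFin I).symm⟩⟩
  have hm : m ≤ k := by
    simpa using Fintype.card_le_of_injective (fun x => (e x).1)
      (Subtype.val_injective.comp e.injective)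
  haveI := MulAction.isMultiplyPretransitive_of_le (G := G) (α := α) (m := m) (n := t)
    (hm.trans hkt) ht
  have hinj : Function.Injective fun x => v (e x).1 := fun a b hab => by
    have h1 := (firstIndex_eq_iff v _ _).2 hab
    rw [(e a).2, (e b).2] at h1
    exact e.injective (Subtype.ext h1)
  have hinj' : Function.Injective fun x => w (e x).1 := fun a b hab => hinj ((h _ _).2 hab)
  obtain ⟨g, hg⟩ := exists_smul_eq G (⟨_, hinj⟩ : Fin m ↪ α) (⟨_, hinj'⟩ : Fin m ↪ α)
  refine ⟨g, funext fun i => ?_⟩
  have hI : firstIndex v (firstIndex v i) = firstIndex v i :=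
    (firstIndex_eq_iff v _ _).2 (apply_firstIndex v i)
  obtain ⟨x, hx⟩ := e.surjective ⟨_, hI⟩
  have h1 := DFunLike.congr_fun hg x
  simp only [Function.Embedding.smul_apply, Function.Embedding.coeFn_mk, hx] at h1
  rw [apply_firstIndex v i, (h _ _).1 (apply_firstIndex v i)] at h1
  exact h1

/-- Every pattern occurs. -/
theorem exists_tuple [Finite α] {k : ℕ} (hk : k ≤ Nat.card α) {r : Fin k → Fin k}
    (hr : ∀ i, r i ≤ i ∧ r (r i) = r i) : ∃ v : Fin k → α, firstIndex v = r := by
  haveI := Fintype.ofFinite α
  rw [Nat.card_eq_fintype_card] at hk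
  obtain ⟨ι⟩ : Nonempty (Fin k ↪ α) := Function.Embedding.nonempty_of_card_le (by simpa using hk)
  refine ⟨fun i => ι (r i), funext fun i => ?_⟩
  have h1 : r (firstIndex (fun i => ι (r i)) i) = r i :=
    ι.injective (apply_firstIndex (fun i => ι (r i)) i)
  refine le_antisymm (firstIndex_le _ (congrArg ι (hr i).2)) ?_
  calc r i = r (firstIndex (fun i => ι (r i)) i) := h1.symm
    _ ≤ _ := (hr _).1

/-- The sum of the twisted fixed tuple counts. -/
theorem sum_tupleCount [Fintype G] [Finite α] {k t : ℕ} (hkt : k ≤ t) (ht : t ≤ Nat.card α)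
    [IsMultiplyPretransitive G α t] (D : Finset (Fin k × Fin k)) (σ : Fin k → Fin k) :
    ∑ g : G, tupleCount α D σ g = Nat.card G * patternCount D σ := by
  classical
  haveI := Fintype.ofFinite α
  let V : Finset (Fin k → α) := Finset.univ.filter fun v => ∀ p ∈ D, v p.1 ≠ v p.2
  let a : (Fin k → α) → ℕ := fun v => (Finset.univ.filter fun g : G => g • v = v ∘ σ).card
  have h1 : ∑ g : G, tupleCount α D σ g = ∑ v ∈ V, a v := by
    have : ∀ g : G, tupleCount α D σ g = (V.filter fun v => g • v = v ∘ σ).card := fun g => by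
      rw [tupleCount, Nat.card_eq_fintype_card, Fintype.card_subtype, Finset.filter_filter]
      congr 1
      refine Finset.filter_congr fun v _ => ?_
      simp only [funext_iff, Pi.smul_apply, Function.comp_apply]
    simp only [this, a, Finset.card_filter]
    exact Finset.sum_comm
  let R : Finset (Fin k → Fin k) := Finset.univ.filter fun r => (∀ i, r i ≤ i ∧ r (r i) = r i) ∧
    (∀ p ∈ D, r p.1 ≠ r p.2)
  let inv : (Fin k → Fin k) → Prop := fun r => ∀ i j, r i = r j ↔ r (σ i) = r (σ j)
  have hV : ∀ v ∈ V, firstIndex v ∈ R := fun v hv => by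
    simp only [V, Finset.mem_filter, Finset.mem_univ, true_and] at hv
    simp only [R, Finset.mem_filter, Finset.mem_univ, true_and]
    exact ⟨fun i => ⟨firstIndex_le v rfl, (firstIndex_eq_iff v _ _).2 (apply_firstIndex v i)⟩,
      fun p hp => fun h => hv p hp ((firstIndex_eq_iff v _ _).1 h)⟩
  have h2 : ∀ r ∈ R, ∑ v ∈ V.filter (fun v => firstIndex v = r), a v =
      if inv r then Nat.card G else 0 := by
    intro r hr
    simp only [R, Finset.mem_filter, Finset.mem_univ, true_and] at hr
    have hfib : ∀ v : Fin k → α, firstIndex v = r →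
        (V.filter fun w => firstIndex w = r).card * Nat.card (stabilizer G v) = Nat.card G := by
      intro v hv
      have he : ((V.filter fun w => firstIndex w = r : Finset (Fin k → α)) : Set (Fin k → α)) =
          orbit G v := by
        ext w
        simp only [Finset.coe_filter, Set.mem_setOf_eq, V, Finset.mem_filter, Finset.mem_univ,
          true_and]
        constructor
        · rintro ⟨-, hw⟩
          refine exists_smul_of_pattern hkt ht fun i j => ?_
          rw [← firstIndex_eq_iff, ← firstIndex_eq_iff w, hv, hw]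
        · rintro ⟨g, rfl⟩
          have e : firstIndex (g • v) = r := by
            rw [← hv]
            exact firstIndex_congr fun i j => by simp [smul_left_cancel_iff]
          exact ⟨fun p hp h => hr.2 p hp (by rw [← e]; exact (firstIndex_eq_iff _ _ _).2 h), e⟩
      rw [← Nat.card_congr (orbitProdStabilizerEquivGroup G v), Nat.card_prod, ← he]
      simp
    split_ifs with hinv
    · obtain ⟨v₀, hv₀⟩ := exists_tuple (α := α) (hkt.trans ht) hr.1
      have hs : ∀ v ∈ V.filter (fun v => firstIndex v = r),
          a v = Nat.card (stabilizer G v₀) := by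
        intro v hv
        rw [Finset.mem_filter] at hv
        obtain ⟨g₀, hg₀⟩ := exists_smul_of_pattern (G := G) hkt ht (v := v) (w := v ∘ σ)
          fun i j => by
            rw [Function.comp_apply, Function.comp_apply, ← firstIndex_eq_iff,
              ← firstIndex_eq_iff v (σ i), hv.2]
            exact hinv i j
        have e : {g : G // g • v = v ∘ σ} ≃ stabilizer G v :=
          { toFun := fun g => ⟨g₀⁻¹ * g.1, by
              rw [mem_stabilizer_iff, mul_smul, g.2, inv_smul_eq_iff, hg₀]⟩
            invFun := fun h => ⟨g₀ * h.1, by rw [mul_smul, h.2, hg₀]⟩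
            left_inv := fun g => Subtype.ext (mul_inv_cancel_left g₀ g.1)
            right_inv := fun h => Subtype.ext (inv_mul_cancel_left g₀ h.1) }
        have h3 : a v = Nat.card (stabilizer G v) := by
          simp only [a, ← Fintype.card_subtype, ← Nat.card_eq_fintype_card]
          exact Nat.card_congr e
        rw [h3]
        have h4 := (hfib v hv.2).trans (hfib v₀ hv₀).symm
        exact Nat.eq_of_mul_eq_mul_left (Finset.card_pos.2 ⟨v, Finset.mem_filter.2 hv⟩) h4
      rw [Finset.sum_congr rfl hs, Finset.sum_const, smul_eq_mul, hfib v₀ hv₀]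
    · refine Finset.sum_eq_zero fun v hv => ?_
      rw [Finset.mem_filter] at hv
      simp only [a, Finset.card_eq_zero, Finset.filter_eq_empty_iff]
      intro g _ hg
      apply hinv
      intro i j
      have hgi : ∀ x, g • v x = v (σ x) := fun x => congrFun hg x
      rw [← hv.2, firstIndex_eq_iff, firstIndex_eq_iff, ← hgi, ← hgi, smul_left_cancel_iff]
  rw [h1, ← Finset.sum_fiberwise_of_maps_to hV, Finset.sum_congr rfl h2, Finset.sum_ite,
    Finset.sum_const_zero, add_zero, Finset.sum_const, smul_eq_mul, mul_comm]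
  congr 1
  simp only [patternCount, R, inv, Finset.filter_filter, and_assoc]

/-- Products of counts are counts of longer tuples. -/
theorem tupleCount_mul {k l : ℕ} (D : Finset (Fin k × Fin k)) (E : Finset (Fin l × Fin l))
    (σ : Fin k → Fin k) (ρ : Fin l → Fin l) (g : G) :
    tupleCount α D σ g * tupleCount α E ρ g = tupleCount α
      (D.image (Prod.map (Fin.castAdd l) (Fin.castAdd l)) ∪
        E.image (Prod.map (Fin.natAdd k) (Fin.natAdd k)))
      (Fin.append (Fin.castAdd l ∘ σ) (Fin.natAdd k ∘ ρ)) g := by
  unfold tupleCount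
  rw [← Nat.card_prod]
  refine Nat.card_congr
    { toFun := fun p => ⟨Fin.append p.1.1 p.2.1, ?_, ?_⟩
      invFun := fun v => (⟨fun i => v.1 (Fin.castAdd l i), ?_, ?_⟩,
        ⟨fun i => v.1 (Fin.natAdd k i), ?_, ?_⟩)
      left_inv := fun p => ?_
      right_inv := fun v => ?_ }
  · intro q hq
    simp only [Finset.mem_union, Finset.mem_image] at hq
    rcases hq with ⟨x, hx, rfl⟩ | ⟨x, hx, rfl⟩
    · simpa using p.1.2.1 x hx
    · simpa using p.2.2.1 x hx
  · intro i
    refine Fin.addCases (fun j => ?_) (fun j => ?_) i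
    · simpa using p.1.2.2 j
    · simpa using p.2.2.2 j
  · intro x hx
    exact v.2.1 _ (Finset.mem_union_left _ (Finset.mem_image.2 ⟨x, hx, rfl⟩))
  · intro i
    simpa using v.2.2 (Fin.castAdd l i)
  · intro x hx
    exact v.2.1 _ (Finset.mem_union_right _ (Finset.mem_image.2 ⟨x, hx, rfl⟩))
  · intro i
    simpa using v.2.2 (Fin.natAdd k i)
  · exact Prod.ext (Subtype.ext (funext fun i => by simp)) (Subtype.ext (funext fun i => by simp))
  · refine Subtype.ext (funext fun i => ?_)
    refine Fin.addCases (fun j => ?_) (fun j => ?_) i <;> simp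

end CfsgLib.SmallChars
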