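import Cfsg.Agent.Perm57.SmallChars.Main

/-!
Irreducible characters of the symmetric group, irreducible on the alternating group, vanishing at
a 2-element respectively an element of order three.
-/

set_option autoImplicit false
set_option linter.style.haveILetI false

open MulAction Cfsg Equiv Equiv.Perm

namespace CfsgLib.SmallChars

variable {n : ℕ}

theorem four_pretransitive_perm (n : ℕ) : IsMultiplyPretransitive (Perm (Fin n)) (Fin n) 4 :=
  Equiv.Perm.isMultiplyPretransitive _ _

theorem four_pretransitive_alt (hn : 6 ≤ n) :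
    IsMultiplyPretransitive (alternatingGroup (Fin n)) (Fin n) 4 := by
  haveI := alternatingGroup.isMultiplyPretransitive (Fin n)
  exact MulAction.isMultiplyPretransitive_of_le (n := Nat.card (Fin n) - 2)
    (by rw [Nat.card_fin]; omega) (Nat.sub_le _ _)

/-- The three characters restrict to themselves. -/
theorem restrict_eq (x : alternatingGroup (Fin n)) :
    charStd (Fin n) (x : Perm (Fin n)) = charStd (Fin n) x ∧
    charTwoTwo (Fin n) (x : Perm (Fin n)) = charTwoTwo (Fin n) x ∧
    charOneOne (Fin n) (x : Perm (Fin n)) = charOneOne (Fin n) x :=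
  ⟨rfl, rfl, rfl⟩

/-- An even permutation of given cycle type. -/
theorem exists_even_perm {m : Multiset ℕ} (hm : m.sum ≤ n) (h2 : ∀ a ∈ m, 2 ≤ a)
    (hs : Even (m.sum + Multiset.card m)) :
    ∃ x : alternatingGroup (Fin n), orderOf x = m.lcm ∧ fixedCount (Fin n) x = n - m.sum ∧
      (2 ∉ m → swapCount (Fin n) x = 0) := by
  classical
  obtain ⟨g, hg⟩ := (Equiv.Perm.exists_with_cycleType_iff (α := Fin n)).2
    ⟨by rwa [Fintype.card_fin], h2⟩
  have hgA : g ∈ alternatingGroup (Fin n) := by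
    rw [Perm.mem_alternatingGroup, sign_of_cycleType, hg, hs.neg_one_pow]
  refine ⟨⟨g, hgA⟩, ?_, ?_, ?_⟩
  · rw [Subgroup.orderOf_mk, ← lcm_cycleType, hg]
  · rw [fixedCount_eq, Nat.card_eq_fintype_card]
    have e : Fintype.card (fixedBy (Fin n) (⟨g, hgA⟩ : alternatingGroup (Fin n))) = g.supportᶜ.card :=
      Fintype.card_of_subtype _ fun a => by
        simp [mem_fixedBy, Subgroup.smul_def]
    rw [e, Finset.card_compl, Fintype.card_fin, ← sum_cycleType, hg]
  · intro h2m
    refine swapCount_eq_zero _ fun a ha => ?_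
    simp only [Subgroup.smul_def, Perm.smul_def] at ha ⊢
    by_contra hne
    apply h2m
    have hc : (g.cycleOf a).IsCycle := isCycle_cycleOf g hne
    have hmem : g.cycleOf a ∈ g.cycleFactorsFinset :=
      cycleOf_mem_cycleFactorsFinset_iff.2 (mem_support.2 hne)
    have hsq : (g.cycleOf a ^ 2) a = a := by
      rw [cycleOf_pow_apply_self, pow_two, Perm.mul_apply]
      exact ha
    have hne' : g.cycleOf a a ≠ a := by rwa [cycleOf_apply_self]
    have h1 : g.cycleOf a ^ 2 = 1 := hc.pow_eq_one_iff.2 ⟨a, hne', hsq⟩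
    have h3 : orderOf (g.cycleOf a) = 2 :=
      orderOf_eq_prime h1 hc.ne_one
    rw [← hg, cycleType_def, Multiset.mem_map]
    exact ⟨g.cycleOf a, hmem, by rw [Function.comp_apply, ← hc.orderOf, h3]⟩

/-- The multiset of `a` twos replaced so that the number of parts is even. -/
theorem exists_two_power_parts {a b : ℕ} (ha : 2 ≤ a) (hb : b = 2 ∨ b = 4) :
    ∃ m : Multiset ℕ, m.sum = a * b ∧ (∀ x ∈ m, b ≤ x) ∧ (∀ x ∈ m, x ∣ 8) ∧
      Even (m.sum + Multiset.card m) := by
  rcases Nat.even_or_odd a with he | ho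
  · refine ⟨Multiset.replicate a b, ?_, fun x hx => (Multiset.eq_of_mem_replicate hx).ge,
      fun x hx => ?_, ?_⟩
    · rw [Multiset.sum_replicate, smul_eq_mul]
    · rw [Multiset.eq_of_mem_replicate hx]
      rcases hb with rfl | rfl <;> norm_num
    · rw [Multiset.sum_replicate, Multiset.card_replicate, smul_eq_mul]
      exact (he.mul_right b).add he
  · obtain ⟨k, rfl⟩ : ∃ k, a = k + 2 := ⟨a - 2, by omega⟩
    have hk : Odd k := by
      rw [Nat.odd_iff] at ho ⊢
      omega
    have hsum : (2 * b ::ₘ Multiset.replicate k b).sum = (k + 2) * b := by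
      rw [Multiset.sum_cons, Multiset.sum_replicate, smul_eq_mul]; ring
    refine ⟨2 * b ::ₘ Multiset.replicate k b, hsum, fun x hx => ?_, fun x hx => ?_, ?_⟩
    · rcases Multiset.mem_cons.1 hx with h | h
      · omega
      · exact (Multiset.eq_of_mem_replicate h).ge
    · rcases Multiset.mem_cons.1 hx with h | h
      · subst h
        rcases hb with rfl | rfl <;> norm_num
      · rw [Multiset.eq_of_mem_replicate h]
        rcases hb with rfl | rfl <;> norm_num
    · rw [hsum, Multiset.card_cons, Multiset.card_replicate]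
      refine Even.add ?_ ?_
      · rcases hb with rfl | rfl <;> simp [parity_simps]
      · exact hk.add_one

theorem exists_two_power_order {m : Multiset ℕ} (h : ∀ x ∈ m, x ∣ 8) : ∃ j, m.lcm = 2 ^ j := by
  obtain ⟨j, -, hj⟩ := (Nat.dvd_prime_pow Nat.prime_two).1
    (show m.lcm ∣ 2 ^ 3 from Multiset.lcm_dvd.2 h)
  exact ⟨j, hj⟩

theorem charStd_eq_zero {α : Type} {G : Type*} [Group G] [MulAction G α] {g : G}
    (h : fixedCount α g = 1) : charStd α g = 0 := by
  simp [charStd, h]

theorem charTwoTwo_eq_zero {α : Type} [Finite α] {G : Type*} [Group G] [MulAction G α] {g : G}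
    (h : fixedCount α g = 0) (hs : swapCount α g = 0) : charTwoTwo α g = 0 := by
  simp [charTwoTwo, pairCount_eq, h, hs]

theorem charOneOne_eq_zero {α : Type} [Finite α] {G : Type*} [Group G] [MulAction G α] {g : G}
    (h : fixedCount α g = 2) (hs : swapCount α g = 0) : charOneOne α g = 0 := by
  simp [charOneOne, pairCount_eq, h, hs]
  norm_num

/-- A zero of one of the three characters gives the required pair of characters. -/
theorem exists_irr_zero (hn : 7 ≤ n) {x : alternatingGroup (Fin n)}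
    (h : fixedCount (Fin n) x = 1 ∨ (fixedCount (Fin n) x = 0 ∧ swapCount (Fin n) x = 0) ∨
      (fixedCount (Fin n) x = 2 ∧ swapCount (Fin n) x = 0)) :
    ∃ χ : IrrCharacter (alternatingGroup (Fin n)),
      (χ : alternatingGroup (Fin n) → ℂ) x = 0 ∧ ∃ ψ : IrrCharacter (Perm (Fin n)),
        ∀ y : alternatingGroup (Fin n),
          (ψ : Perm (Fin n) → ℂ) y = (χ : alternatingGroup (Fin n) → ℂ) y := by
  classical
  have h4 := four_pretransitive_alt (n := n) (by omega)
  have hc : 4 ≤ Nat.card (Fin n) := by rw [Nat.card_fin]; omega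
  have hd : Nat.card (Fin n) * 3 ≤ Nat.card (Fin n) * Nat.card (Fin n) :=
    Nat.mul_le_mul_left _ (by omega)
  rcases h with h | ⟨h, hs⟩ | ⟨h, hs⟩
  · exact ⟨⟨_, isIrr_charStd h4 hc⟩, charStd_eq_zero h,
      ⟨_, isIrr_charStd (four_pretransitive_perm n) hc⟩, fun y => (restrict_eq y).1⟩
  · exact ⟨⟨_, isIrr_charTwoTwo h4 hc hd⟩, charTwoTwo_eq_zero h hs,
      ⟨_, isIrr_charTwoTwo (four_pretransitive_perm n) hc hd⟩, fun y => (restrict_eq y).2.1⟩
  · exact ⟨⟨_, isIrr_charOneOne h4 hc⟩, charOneOne_eq_zero h hs,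
      ⟨_, isIrr_charOneOne (four_pretransitive_perm n) hc⟩, fun y => (restrict_eq y).2.2⟩

/-- A good two-element. -/
theorem exists_two_element (hn : 7 ≤ n) : ∃ x : alternatingGroup (Fin n),
    (∃ j, orderOf x = 2 ^ j) ∧ (fixedCount (Fin n) x = 1 ∨
      (fixedCount (Fin n) x = 0 ∧ swapCount (Fin n) x = 0) ∨
      (fixedCount (Fin n) x = 2 ∧ swapCount (Fin n) x = 0)) := by
  rcases (show n % 2 = 1 ∨ n % 4 = 0 ∨ n % 4 = 2 by omega) with h | h | h
  · obtain ⟨m, hsum, hge, hdvd, hev⟩ :=
      exists_two_power_parts (a := n / 2) (b := 2) (by omega) (Or.inl rfl)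
    obtain ⟨x, ho, hf, -⟩ := exists_even_perm (n := n) (by omega) (fun a ha => hge a ha) hev
    obtain ⟨j, hj⟩ := exists_two_power_order hdvd
    exact ⟨x, ⟨j, ho.trans hj⟩, Or.inl (by omega)⟩
  · obtain ⟨m, hsum, hge, hdvd, hev⟩ :=
      exists_two_power_parts (a := n / 4) (b := 4) (by omega) (Or.inr rfl)
    obtain ⟨x, ho, hf, hs⟩ := exists_even_perm (n := n) (by omega)
      (fun a ha => by have := hge a ha; omega) hev
    obtain ⟨j, hj⟩ := exists_two_power_order hdvd
    exact ⟨x, ⟨j, ho.trans hj⟩, Or.inr (Or.inl ⟨by omega,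
      hs fun h2 => by have := hge 2 h2; omega⟩)⟩
  · obtain ⟨m, hsum, hge, hdvd, hev⟩ :=
      exists_two_power_parts (a := n / 4) (b := 4) (by omega) (Or.inr rfl)
    obtain ⟨x, ho, hf, hs⟩ := exists_even_perm (n := n) (by omega)
      (fun a ha => by have := hge a ha; omega) hev
    obtain ⟨j, hj⟩ := exists_two_power_order hdvd
    exact ⟨x, ⟨j, ho.trans hj⟩, Or.inr (Or.inr ⟨by omega,
      hs fun h2 => by have := hge 2 h2; omega⟩)⟩

/-- A good element of order three. -/
theorem exists_three_element (hn : 7 ≤ n) : ∃ x : alternatingGroup (Fin n),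
    orderOf x = 3 ∧ (fixedCount (Fin n) x = 1 ∨
      (fixedCount (Fin n) x = 0 ∧ swapCount (Fin n) x = 0) ∨
      (fixedCount (Fin n) x = 2 ∧ swapCount (Fin n) x = 0)) := by
  obtain ⟨x, ho, hf, hs⟩ := exists_even_perm (n := n) (m := Multiset.replicate (n / 3) 3)
    (by rw [Multiset.sum_replicate, smul_eq_mul]; omega)
    (fun a ha => by rw [Multiset.eq_of_mem_replicate ha]; norm_num)
    (by
      rw [Multiset.sum_replicate, Multiset.card_replicate, smul_eq_mul]
      exact ⟨2 * (n / 3), by ring⟩)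
  rw [Multiset.sum_replicate, smul_eq_mul] at hf
  have hord : (Multiset.replicate (n / 3) 3).lcm = 3 := by
    refine Nat.dvd_antisymm (Multiset.lcm_dvd.2 fun a ha => ?_)
      (Multiset.dvd_lcm (Multiset.mem_replicate.2 ⟨by omega, rfl⟩))
    rw [Multiset.eq_of_mem_replicate ha]
  have hs' := hs fun h2 => by simpa using Multiset.eq_of_mem_replicate h2
  refine ⟨x, ho.trans hord, ?_⟩
  rcases (show n % 3 = 0 ∨ n % 3 = 1 ∨ n % 3 = 2 by omega) with h | h | h
  · exact Or.inr (Or.inl ⟨by omega, hs'⟩)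
  · exact Or.inl (by omega)
  · exact Or.inr (Or.inr ⟨by omega, hs'⟩)

end CfsgLib.SmallChars
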